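import Cfsg.Agent.CosetEnum.Ly.MW

/-! Relations of words, part 12 (generated; owner: helper66). -/

set_option autoImplicit false
set_option maxRecDepth 1000000

namespace Cfsg.Agent.LyG

open Cfsg.Agent.CosetEnum Cfsg.Agent.KMat

theorem mmc108 : allR (prB PM ms2 prsMM) 108 3 = true := by decide +kernel

theorem mmv12 : Cov (prB PM ms2 prsMM) 108 111 :=
  (Cov.of mmc108 rfl)

end Cfsg.Agent.LyG
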