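import Cfsg.Agent.CosetEnum.Ly.MW

/-! Relations of words, part 2 (generated; owner: helper66). -/

set_option autoImplicit false
set_option maxRecDepth 1000000

namespace Cfsg.Agent.LyG

open Cfsg.Agent.CosetEnum Cfsg.Agent.KMat

theorem mmc18 : allR (prB PM ms2 prsMM) 18 3 = true := by decide +kernel

theorem mmc21 : allR (prB PM ms2 prsMM) 21 3 = true := by decide +kernel

theorem mmc24 : allR (prB PM ms2 prsMM) 24 3 = true := by decide +kernel

theorem mmv2 : Cov (prB PM ms2 prsMM) 18 27 :=
  (((Cov.of mmc18 rfl).trans (Cov.of mmc21 rfl)).trans (Cov.of mmc24 rfl))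

end Cfsg.Agent.LyG
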