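import Cfsg.Agent.MRel.StabH
import Cfsg.Agent.MRel.Basic

/-!
The `p`-part of the Schur multiplier from a perfect subgroup of index prime to `p` (owner: helper66).
-/

set_option autoImplicit false

namespace Cfsg.Agent.LyG

open Subgroup Cfsg.Agent.MRel Mult
open scoped commutatorElement

universe v

theorem pb_of_sub {G : Type v} [Group G] {H : Subgroup G} (hH : commutator H = ⊤) {p : ℕ} (hp : p.Prime)
    (hidx : ¬ p ∣ H.index) (mb : MB H 1) (d : ℕ) : PB G p d := by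
  apply PB.of_not_dvd
  intro Γ _ _ σ P hd
  haveI : Fact p.Prime := ⟨hp⟩
  obtain ⟨K, τ, hτ, hσ, hc⟩ := PCE.restrict P.ce hH
  have h1 := mb K τ hτ
  rw [hc] at h1
  have h2 : K ⊓ σ.ker = ⊥ := Subgroup.eq_bot_of_card_eq _ (Nat.dvd_one.1 h1)
  have key : ∀ a ∈ H.comap σ, ∃ a' ∈ K, a'⁻¹ * a ∈ center Γ := by
    intro a ha
    obtain ⟨k, hk⟩ := hτ.ce.surj ⟨σ a, ha⟩
    refine ⟨(k : Γ), k.2, P.ce.central ?_⟩
    have h3 : σ (k : Γ) = σ a := by rw [← hσ, hk]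
    rw [MonoidHom.mem_ker, map_mul, map_inv, h3, inv_mul_cancel]
  refine Cfsg.Agent.H90.Stem.false_of_comm P.stem hd (H.comap σ) ?_ K ?_ ?_
  · rw [index_comap_of_surjective _ P.ce.surj]; exact hidx
  · intro a ha b hb
    obtain ⟨a', ha', h3⟩ := key a ha
    obtain ⟨b', hb', h4⟩ := key b hb
    rw [← comm_eq_of_center h3 h4]
    exact K.mul_mem (K.mul_mem (K.mul_mem ha' hb') (K.inv_mem ha')) (K.inv_mem hb')
  · intro x hx h
    have h3 : x ∈ K ⊓ σ.ker := ⟨hx, h⟩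
    rw [h2] at h3
    exact mem_bot.1 h3

end Cfsg.Agent.LyG
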