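import Cfsg.Agent.CosetEnum.Ly.MP0
import Cfsg.Agent.CosetEnum.Ly.MP1
import Cfsg.Agent.CosetEnum.Ly.MP2
import Cfsg.Agent.CosetEnum.Ly.MP3
import Cfsg.Agent.CosetEnum.Ly.MP4
import Cfsg.Agent.CosetEnum.Ly.MP5
import Cfsg.Agent.CosetEnum.Ly.MP6
import Cfsg.Agent.CosetEnum.Ly.MP7
import Cfsg.Agent.CosetEnum.Ly.MP8
import Cfsg.Agent.CosetEnum.Ly.MP9
import Cfsg.Agent.CosetEnum.Ly.MP10
import Cfsg.Agent.CosetEnum.Ly.MP11
import Cfsg.Agent.CosetEnum.Ly.MP12
import Cfsg.Agent.CosetEnum.Ly.MS
import Cfsg.Agent.CosetEnum.Ly.Ord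
import Cfsg.Agent.MRel.Proj
import Cfsg.Agent.S2100

/-!
The Schur multiplier of the Lyons group is trivial (owner: helper66).
-/

set_option autoImplicit false
set_option maxRecDepth 1000000

namespace Cfsg.Agent.LyG

open Cfsg.Agent.CosetEnum (Cov)
open Cfsg.Agent.KMat Cfsg.Agent.MRel Cfsg.Agent.MRel.KM Cfsg.Agent.MRel.Stab Cfsg.Spor

theorem mmcov : Cov (prB PM ms2 prsMM) 0 111 := ((((((((((((mmv0.trans mmv1).trans mmv2).trans mmv3).trans mmv4).trans mmv5).trans mmv6).trans mmv7).trans mmv8).trans mmv9).trans mmv10).trans mmv11).trans mmv12)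

/-- the matrix group -/
noncomputable abbrev RM : Subgroup MU := phi.range

theorem LA_sub : ∀ x ∈ letsA, x ∈ letsA := fun _ h => h

theorem LA_R : ∀ x ∈ letsA, Ug x ∈ RM := fun x _ => rgU x

theorem memM2 {q : List ℕ × List ℕ} (h : q ∈ prsM2) : q ∈ prsMM := List.mem_append_left _ h
theorem memM3 {q : List ℕ × List ℕ} (h : q ∈ prsM3) : q ∈ prsMM := List.mem_append_right _ (List.mem_append_left _ h)
theorem memMO {q : List ℕ × List ℕ} (h : q ∈ prsMO) : q ∈ prsMM := List.mem_append_right _ (List.mem_append_right _ h)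

theorem upM {l : List (List ℕ × List ℕ)} (hl : ∀ q ∈ l, q ∈ prsMM) {ι : Type} {s : List ι} {f : ι → List ℕ × List ℕ}
    (h : (s.all fun q => l.contains (f q)) = true) : (s.all fun q => prsMM.contains (f q)) = true := by
  rw [List.all_eq_true] at h ⊢
  intro x hx
  have h1 : f x ∈ l := by simpa using h x hx
  simpa using hl _ h1

/-- letters -/
noncomputable abbrev gM2 : ℕ → RM := fun i => Cfsg.Agent.MulX.Coh.val (gu Ug RM) (WM2.getD i [])
/-- letters -/
noncomputable abbrev gM3 : ℕ → RM := fun i => Cfsg.Agent.MulX.Coh.val (gu Ug RM) (WM3.getD i [])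

theorem WM2L : (WM2.all fun w => w.all fun x => letsA.contains x) = true := by decide +kernel
theorem WM3L : (WM3.all fun w => w.all fun x => letsA.contains x) = true := by decide +kernel

theorem hM2 : Holds gM2 MC2.rules := holds FG RM mmcov LA_sub LA_R WM2L (upM (fun _ h => memM2 h) rlM2)
theorem hM3 : Holds gM3 MC3.rules := holds FG RM mmcov LA_sub LA_R WM3L (upM (fun _ h => memM3 h) rlM3)

theorem crdM2 : 2 ^ 8 ≤ Nat.card ↥(Subgroup.closure (gM2 '' {i | i < 8})) :=
  card_closure FG RM mmcov LA_sub LA_R WM2L (l0 := [23, 24, 25, 26]) (l1 := [27, 28, 29, 30]) (lw := lwM2)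
    (upM (fun _ h => memM2 h) llM2) (by decide +kernel) (by decide +kernel) fv2_vec e0_vec fx2 d21 d20 finR rfl

theorem crdM3 : 3 ^ 7 ≤ Nat.card ↥(Subgroup.closure (gM3 '' {i | i < 7})) :=
  card_closure FG RM mmcov LA_sub LA_R WM3L (l0 := [16, 17, 18, 19]) (l1 := [20, 21, 22]) (lw := lwM3)
    (upM (fun _ h => memM3 h) llM3) (by decide +kernel) (by decide +kernel) fv3_vec e0_vec fx3 d31 d30 finR rfl

theorem phi_inj : Function.Injective phi := by
  haveI := simple_Ly
  rcases (inferInstance : phi.ker.Normal).eq_bot_or_eq_top with h | h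
  · exact (MonoidHom.ker_eq_bot_iff _).1 h
  · exfalso
    have h1 : phi (gL 7) = 1 := by
      have : gL 7 ∈ phi.ker := by rw [h]; exact Subgroup.mem_top _
      exact this
    rw [phi_gL] at h1
    refine RT.ne (u := [7]) (u' := []) ?_ (by simp) (v := 2 ^ (12 * 0)) ?_ (by decide +kernel) (by simpa using h1)
    · intro x hx
      simp only [List.mem_cons, List.not_mem_nil, or_false] at hx
      subst hx
      decide
    · exact basis_vec (P := PM) (i := 0) (by show 1 < 5; norm_num) (by show 0 < 111; norm_num)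

/-- the isomorphism -/
noncomputable def eRM : Spor.Ly ≃* RM := MonoidHom.ofInjective phi_inj

theorem card_RM : Nat.card RM = 51765179004000000 := by
  rw [← Nat.card_congr eRM.toEquiv, card_Ly]

theorem pb2 : PB RM 2 1 := by
  haveI := finR
  exact PB_one Nat.prime_two gM2 MC2.good rfl rfl hM2 MC2.pc_ok crdM2 card_RM (by norm_num) 1

theorem pb3 : PB RM 3 1 := by
  haveI := finR
  exact PB_one Nat.prime_three gM3 MC3.good rfl rfl hM3 MC3.pc_ok crdM3 card_RM (by norm_num) 1

theorem perf_of_nc {G : Type} [Group G] [IsSimpleGroup G] {a b : G} (h : a * b ≠ b * a) : commutator G = ⊤ := by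
  rcases (inferInstance : (commutator G).Normal).eq_bot_or_eq_top with h1 | h1
  · exfalso
    rw [commutator_def, Subgroup.commutator_eq_bot_iff_le_centralizer] at h1
    exact h (Subgroup.mem_centralizer_iff.1 (h1 (Subgroup.mem_top b)) a (Subgroup.mem_top a))
  · exact h1

theorem perf_of_card {G : Type} [Group G] [Finite G] [IsSimpleGroup G] (h : ¬ (Nat.card G).Prime) : commutator G = ⊤ := by
  by_cases hab : ∀ a b : G, a * b = b * a
  · exfalso
    letI : CommGroup G := { (inferInstance : Group G) with mul_comm := hab }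
    exact h IsSimpleGroup.prime_card
  · push Not at hab
    obtain ⟨a, b, hab⟩ := hab
    exact perf_of_nc hab

theorem perf_Ly : commutator Spor.Ly = ⊤ := by
  haveI := simple_Ly
  haveI := finite_Ly
  apply perf_of_card
  rw [card_Ly]
  intro h
  have h2 : (2 : ℕ) ∣ 51765179004000000 := by norm_num
  rcases (Nat.dvd_prime h).1 h2 with h3 | h3 <;> omega

theorem perf_HG : commutator HG = ⊤ := by
  haveI := HG_simple
  haveI := finite_Ly
  apply perf_of_card
  rw [card_HG]
  intro h
  have h2 : (2 : ℕ) ∣ 5859000000 := by norm_num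
  rcases (Nat.dvd_prime h).1 h2 with h3 | h3 <;> omega

theorem mb_HG : MB HG 1 := by
  obtain ⟨e⟩ := QA_iso
  have h1 : Cfsg.HasCyclicSchurMultiplier ↥(Cfsg.Lie.chevG2.group (ZMod 5)) 1 :=
    Cfsg.Agent.S2100.result (F := ZMod 5) (by rw [ZMod.card])
  exact ((MB.of_cyclic h1).equiv e.symm).equiv eHG

theorem pb5L : PB Spor.Ly 5 1 :=
  pb_of_sub perf_HG (by norm_num) (by rw [index_eq]; norm_num) mb_HG 1

theorem pb5 : PB RM 5 1 := pb5L.equiv eRM

/-- words -/
def wd7 : List ℕ := [11, 7, 13]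
/-- words -/
def wd31 : List ℕ := [13, 10, 6]

theorem kM7 : prsMM.contains ((List.replicate 7 wd7).flatten, []) = true := by
  simpa using memMO (q := ((List.replicate 7 wd7).flatten, [])) (by decide +kernel)
theorem kM31 : prsMM.contains ((List.replicate 31 wd31).flatten, []) = true := by
  simpa using memMO (q := ((List.replicate 31 wd31).flatten, [])) (by decide +kernel)
theorem kM11 : prsG.contains ((List.replicate 11 [33]).flatten, []) = true := by
  simpa using memP (r := ((List.replicate 11 [33]).flatten, [])) (by decide +kernel)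
theorem kM37 : prsG.contains ((List.replicate 37 [31]).flatten, []) = true := by
  simpa using memP (r := ((List.replicate 37 [31]).flatten, [])) (by decide +kernel)
theorem kM67 : prsG.contains ((List.replicate 67 [32]).flatten, []) = true := by
  simpa using memP (r := ((List.replicate 67 [32]).flatten, [])) (by decide +kernel)

theorem mM7 : Nat.beq (walk PM ms2 wd7 1) 1 = false := by decide +kernel
theorem mM31 : Nat.beq (walk PM ms2 wd31 1) 1 = false := by decide +kernel
theorem mM11 : Nat.beq (walk PM ms2 [33] 1) 1 = false := by decide +kernel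
theorem mM37 : Nat.beq (walk PM ms2 [31] 1) 1 = false := by decide +kernel
theorem mM67 : Nat.beq (walk PM ms2 [32] 1) 1 = false := by decide +kernel

theorem oM7 : orderOf (Cfsg.Agent.MulX.Coh.val (gu Ug RM) wd7) = 7 :=
  orderOf_word FG RM mmcov LA_sub LA_R (by norm_num) e0_vec (by decide +kernel) kM7 mM7
theorem oM31 : orderOf (Cfsg.Agent.MulX.Coh.val (gu Ug RM) wd31) = 31 :=
  orderOf_word FG RM mmcov LA_sub LA_R (by norm_num) e0_vec (by decide +kernel) kM31 mM31
theorem oM11 : orderOf (Cfsg.Agent.MulX.Coh.val (gu Ug RM) [33]) = 11 :=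
  orderOf_word FG RM pcov LA_sub LA_R (by norm_num) e0_vec (by decide +kernel) kM11 mM11
theorem oM37 : orderOf (Cfsg.Agent.MulX.Coh.val (gu Ug RM) [31]) = 37 :=
  orderOf_word FG RM pcov LA_sub LA_R (by norm_num) e0_vec (by decide +kernel) kM37 mM37
theorem oM67 : orderOf (Cfsg.Agent.MulX.Coh.val (gu Ug RM) [32]) = 67 :=
  orderOf_word FG RM pcov LA_sub LA_R (by norm_num) e0_vec (by decide +kernel) kM67 mM67

theorem pb7 : PB RM 7 1 := by
  haveI := finR
  exact PB.of_cyclic (by norm_num) (cyc_index oM7 (by norm_num) card_RM (by norm_num)) 1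
theorem pb11 : PB RM 11 1 := by
  haveI := finR
  exact PB.of_cyclic (by norm_num) (cyc_index oM11 (by norm_num) card_RM (by norm_num)) 1
theorem pb31 : PB RM 31 1 := by
  haveI := finR
  exact PB.of_cyclic (by norm_num) (cyc_index oM31 (by norm_num) card_RM (by norm_num)) 1
theorem pb37 : PB RM 37 1 := by
  haveI := finR
  exact PB.of_cyclic (by norm_num) (cyc_index oM37 (by norm_num) card_RM (by norm_num)) 1
theorem pb67 : PB RM 67 1 := by
  haveI := finR
  exact PB.of_cyclic (by norm_num) (cyc_index oM67 (by norm_num) card_RM (by norm_num)) 1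

theorem mbRM : MB RM 1 := by
  haveI := finR
  apply MB.of_PB
  intro p hp
  by_cases h : p ∣ Nat.card RM
  · rw [card_RM] at h
    have h2 : p ∣ 2 ^ 8 * (3 ^ 7 * (5 ^ 6 * (7 * (11 * (31 * (37 * 67)))))) := by
      have e : 51765179004000000 = 2 ^ 8 * (3 ^ 7 * (5 ^ 6 * (7 * (11 * (31 * (37 * 67)))))) := by norm_num
      rwa [e] at h
    rcases hp.dvd_mul.1 h2 with h | h
    · rw [(Nat.prime_dvd_prime_iff_eq hp Nat.prime_two).1 (hp.dvd_of_dvd_pow h)]
      exact pb2
    rcases hp.dvd_mul.1 h with h | h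
    · rw [(Nat.prime_dvd_prime_iff_eq hp Nat.prime_three).1 (hp.dvd_of_dvd_pow h)]
      exact pb3
    rcases hp.dvd_mul.1 h with h | h
    · rw [(Nat.prime_dvd_prime_iff_eq hp Nat.prime_five).1 (hp.dvd_of_dvd_pow h)]
      exact pb5
    rcases hp.dvd_mul.1 h with h | h
    · rw [(Nat.prime_dvd_prime_iff_eq hp (by norm_num)).1 h]
      exact pb7
    rcases hp.dvd_mul.1 h with h | h
    · rw [(Nat.prime_dvd_prime_iff_eq hp (by norm_num)).1 h]
      exact pb11
    rcases hp.dvd_mul.1 h with h | h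
    · rw [(Nat.prime_dvd_prime_iff_eq hp (by norm_num)).1 h]
      exact pb31
    rcases hp.dvd_mul.1 h with h | h
    · rw [(Nat.prime_dvd_prime_iff_eq hp (by norm_num)).1 h]
      exact pb37
    · rw [(Nat.prime_dvd_prime_iff_eq hp (by norm_num)).1 h]
      exact pb67
  · exact PB.of_not_card hp h 1

theorem mb_Ly : MB Spor.Ly 1 := mbRM.equiv eRM.symm

theorem mult_Ly : Cfsg.HasCyclicSchurMultiplier Spor.Ly 1 := by
  haveI := finite_Ly
  have P : PCE (MonoidHom.id Spor.Ly) := by
    refine ⟨⟨Function.surjective_id, ?_⟩, perf_Ly⟩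
    intro x hx
    have : x = 1 := hx
    rw [this]; exact one_mem _
  exact cyclic_of perf_Ly one_pos mb_Ly P (z := 1) rfl (one_dvd _)

end Cfsg.Agent.LyG
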