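import Cfsg.Agent.CosetEnum.Ly.ZM
import Cfsg.Agent.LyZ.P1
import Cfsg.Agent.LyZ.P2
import Cfsg.Agent.LyZ.P4
import Cfsg.Agent.LyZ.P5
import Cfsg.Agent.LyZ.P6
import Cfsg.Agent.LyZ.P7
import Cfsg.Agent.LyZ.P8
import Cfsg.Agent.LyZ.P9

/-!
The centraliser of an involution of the Lyons group is the double cover of `A₁₁` (owner: helper66; the group theoretic pieces
`Cfsg.Agent.LyZ.*` are by helpers 24, 67, 94, 36, 10, 37, 32 and others).
-/

set_option autoImplicit false
set_option maxRecDepth 1000000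
set_option linter.all false

namespace Cfsg.Agent.LyG

open Cfsg.Agent.CosetEnum Cfsg.Spor Cfsg.Agent.LyZ
open scoped commutatorElement

theorem third {W : List ℕ} {a b : Spor.Ly} (ha : RW W a) (hb : RW W b)
    (hodd : Odd (Nat.card ↥(Subgroup.closure ({a, b} : Set Spor.Ly)))) (hnc : a * b ≠ b * a) :
    3 * Nat.card {y : Spor.Ly // y ∈ HG ⊓ HG.map (MulAut.conj (ev gL W)⁻¹).toMonoidHom ∧ orderOf y = 2} ≤
      Nat.card ↥(HG ⊓ HG.map (MulAut.conj (ev gL W)⁻¹).toMonoidHom) := by
  haveI := finite_Ly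
  refine inv_le _ (Subgroup.closure {a, b}) ?_ hodd
    ⟨a, Subgroup.subset_closure (by simp), b, Subgroup.subset_closure (by simp), hnc⟩
  rw [Subgroup.closure_le]
  rintro x (rfl | rfl)
  · exact mem_M ha
  · exact mem_M hb

theorem h3L (i : Fin 4) (hi : i ≠ 2) :
    3 * Nat.card {y : Spor.Ly // y ∈ HG ⊓ HG.map (MulAut.conj (gi i)).toMonoidHom ∧ orderOf y = 2} ≤
      Nat.card ↥(HG ⊓ HG.map (MulAut.conj (gi i)).toMonoidHom) := by
  haveI := finite_Ly
  fin_cases i
  · exact third r1a r1b (odd_heis _ _ ka1_5 kb1_5 k1_ca k1_cb) k1_nc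
  · exact third r2a r2b (odd_frob _ _ ka2_7 kb2_3 (Or.inr k2_c)) k2_nc
  · exact absurd rfl hi
  · exact third r3a r3b (odd_frob _ _ ka3_7 kb3_3 (Or.inr k3_c)) k3_nc

theorem centL : Cfsg.IsNonsplitDoubleCover (Subgroup.centralizer ({zL} : Set Spor.Ly)) (alternatingGroup (Fin 11)) := by
  haveI := finite_Ly
  haveI : Fact (Nat.Prime 5) := ⟨by norm_num⟩
  obtain ⟨f, hf, hker, hperf⟩ := exists_f zL z_ord XL X_comm X_h0 X_h1 X_h2 X_h3 X_hz1 X_hne
  obtain ⟨e1⟩ := QA_iso
  obtain ⟨hD, L₁, L₂, hL1, hL2, hLD, hL⟩ := exists_L HG (eHG.symm.trans e1) zL z_mem z_ord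
  have hzC : zL ∈ Subgroup.closure (Set.range XL) := by
    have h := pow_mem (Subgroup.subset_closure ⟨1, rfl⟩ : XL 1 ∈ Subgroup.closure (Set.range XL)) 2
    rwa [X_hz1] at h
  have hcomm : ∀ x ∈ Subgroup.closure (Set.range XL), x * zL = zL * x := by
    intro x hx
    induction hx using Subgroup.closure_induction with
    | mem x hx => obtain ⟨i, rfl⟩ := hx; exact X_comm i
    | one => rw [one_mul, mul_one]
    | mul x y _ _ h1 h2 => rw [mul_assoc, h2, ← mul_assoc, h1, mul_assoc]
    | inv x _ h1 =>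
      have : Commute x zL := h1
      exact this.inv_left
  have hle : Subgroup.closure (Set.range XL) ≤ Subgroup.centralizer {zL} := by
    intro x hx
    rw [Subgroup.mem_centralizer_iff]
    intro y hy
    rw [Set.mem_singleton_iff] at hy
    subst hy
    exact (hcomm x hx).symm
  have hc0 : Nat.card ↥(Subgroup.closure (Set.range XL)) = 39916800 := by
    have h1 := f.ker.card_mul_index
    have h2 : f.ker.index = Nat.card (alternatingGroup (Fin 11)) := by
      rw [Subgroup.index_ker, MonoidHom.range_eq_top.2 hf, Subgroup.card_top]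
    have h3 : Nat.card f.ker = 2 := by
      have h4 : f.ker.map (Subgroup.closure (Set.range XL)).subtype = Subgroup.zpowers zL := by
        ext x
        constructor
        · rintro ⟨y, hy, rfl⟩
          exact (hker y).1 hy
        · intro hx
          have hx' : x ∈ Subgroup.closure (Set.range XL) := (Subgroup.zpowers_le.2 hzC) hx
          exact ⟨⟨x, hx'⟩, (hker _).2 hx, rfl⟩
      rw [Nat.card_congr (f.ker.equivMapOfInjective _ (Subgroup.subtype_injective _)).toEquiv, h4, Nat.card_zpowers, z_ord]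
    have h5 : 2 * Nat.card (alternatingGroup (Fin 11)) = 39916800 := by
      rw [two_mul_nat_card_alternatingGroup, Nat.card_perm, Nat.card_fin]
      rfl
    rw [← h1, h2, h3, h5]
  have hb := cent_le HG zL z_mem z_ord gi hcov h3L
  rw [hD] at hb
  have hk : Nat.card ↥(Subgroup.centralizer ({zL} : Set Spor.Ly)) =
      39916800 * (Subgroup.closure (Set.range XL)).relIndex (Subgroup.centralizer {zL}) := by
    have h1 := ((Subgroup.closure (Set.range XL)).subgroupOf (Subgroup.centralizer {zL})).card_mul_index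
    rw [Nat.card_congr (Subgroup.subgroupOfEquivOfLe hle).toEquiv, hc0] at h1
    exact h1.symm
  have hlt : (Subgroup.closure (Set.range XL)).relIndex (Subgroup.centralizer {zL}) < 11 := by
    rw [hk] at hb
    omega
  have hodd : Odd ((Subgroup.closure (Set.range XL)).relIndex (Subgroup.centralizer {zL})) := by
    have h1 := Subgroup.card_subgroup_dvd_card (Subgroup.centralizer ({zL} : Set Spor.Ly))
    rw [hk, card_Ly] at h1
    have h2 : 39916800 * (Subgroup.closure (Set.range XL)).relIndex (Subgroup.centralizer {zL}) ∣ 39916800 * 1296826875 := by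
      have e : (39916800 * 1296826875 : ℕ) = 51765179004000000 := by norm_num
      rw [e]; exact h1
    have h3 := Nat.dvd_of_mul_dvd_mul_left (by norm_num) h2
    rw [← Nat.not_even_iff_odd]
    intro h4
    have h5 := (even_iff_two_dvd.1 h4).trans h3
    omega
  have e := cent_eq HG (Subgroup.closure (Set.range XL)) zL z_ord hzC hle f hf hker hperf hodd hlt L₁ L₂ hL1 hL2 hLD hL
    (fun g h => hfixL inf_le_right hD g h)
  rw [e]
  exact nonsplit _ zL z_ord hzC hcomm f hf hker hperf

/-- **Existence of the Lyons group.** -/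
theorem existsL : ∃ H : Subgroup (Equiv.Perm (Fin 8835156)), Cfsg.IsLy H ∧ MulAction.IsPretransitive H (Fin 8835156) ∧
    Cfsg.IsG2 (MulAction.stabilizer H (0 : Fin 8835156)) ∧ ∃ t : H, orderOf t = 2 ∧
      Cfsg.IsNonsplitDoubleCover (Subgroup.centralizer ({t} : Set H)) (alternatingGroup (Fin 11)) := by
  haveI := finite_Ly
  haveI := simple_Ly
  exact transport HG card_Ly index_eq HG_simple zL z_ord centL

end Cfsg.Agent.LyG
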