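import Cfsg.Agent.CosetEnum.Ly.ZD

/-! Relations of words, part 1 (generated; owner: helper66). -/

set_option autoImplicit false
set_option maxRecDepth 1000000

namespace Cfsg.Agent.LyG

open Cfsg.Agent.CosetEnum Cfsg.Agent.KMat

theorem zc18 : allR (prB PM ms2 prsZC) 18 3 = true := by decide +kernel

theorem zc21 : allR (prB PM ms2 prsZC) 21 3 = true := by decide +kernel

theorem zc24 : allR (prB PM ms2 prsZC) 24 3 = true := by decide +kernel

theorem zc27 : allR (prB PM ms2 prsZC) 27 3 = true := by decide +kernel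

theorem zc30 : allR (prB PM ms2 prsZC) 30 3 = true := by decide +kernel

theorem zc33 : allR (prB PM ms2 prsZC) 33 3 = true := by decide +kernel

theorem zv1 : Cov (prB PM ms2 prsZC) 18 36 :=
  ((((((Cov.of zc18 rfl).trans (Cov.of zc21 rfl)).trans (Cov.of zc24 rfl)).trans (Cov.of zc27 rfl)).trans (Cov.of zc30 rfl)).trans (Cov.of zc33 rfl))

end Cfsg.Agent.LyG
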