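import Cfsg.Agent.CosetEnum.Ly.ZD

/-! Relations of words, part 2 (generated; owner: helper66). -/

set_option autoImplicit false
set_option maxRecDepth 1000000

namespace Cfsg.Agent.LyG

open Cfsg.Agent.CosetEnum Cfsg.Agent.KMat

theorem zc36 : allR (prB PM ms2 prsZC) 36 3 = true := by decide +kernel

theorem zc39 : allR (prB PM ms2 prsZC) 39 3 = true := by decide +kernel

theorem zc42 : allR (prB PM ms2 prsZC) 42 3 = true := by decide +kernel

theorem zc45 : allR (prB PM ms2 prsZC) 45 3 = true := by decide +kernel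

theorem zc48 : allR (prB PM ms2 prsZC) 48 3 = true := by decide +kernel

theorem zc51 : allR (prB PM ms2 prsZC) 51 3 = true := by decide +kernel

theorem zv2 : Cov (prB PM ms2 prsZC) 36 54 :=
  ((((((Cov.of zc36 rfl).trans (Cov.of zc39 rfl)).trans (Cov.of zc42 rfl)).trans (Cov.of zc45 rfl)).trans (Cov.of zc48 rfl)).trans (Cov.of zc51 rfl))

end Cfsg.Agent.LyG
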