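import Cfsg.Agent.CosetEnum.Ly.ZD

/-! Relations of words, part 3 (generated; owner: helper66). -/

set_option autoImplicit false
set_option maxRecDepth 1000000

namespace Cfsg.Agent.LyG

open Cfsg.Agent.CosetEnum Cfsg.Agent.KMat

theorem zc54 : allR (prB PM ms2 prsZC) 54 3 = true := by decide +kernel

theorem zc57 : allR (prB PM ms2 prsZC) 57 3 = true := by decide +kernel

theorem zc60 : allR (prB PM ms2 prsZC) 60 3 = true := by decide +kernel

theorem zc63 : allR (prB PM ms2 prsZC) 63 3 = true := by decide +kernel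

theorem zc66 : allR (prB PM ms2 prsZC) 66 3 = true := by decide +kernel

theorem zc69 : allR (prB PM ms2 prsZC) 69 3 = true := by decide +kernel

theorem zv3 : Cov (prB PM ms2 prsZC) 54 72 :=
  ((((((Cov.of zc54 rfl).trans (Cov.of zc57 rfl)).trans (Cov.of zc60 rfl)).trans (Cov.of zc63 rfl)).trans (Cov.of zc66 rfl)).trans (Cov.of zc69 rfl))

end Cfsg.Agent.LyG
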