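import Cfsg.Agent.CosetEnum.Ly.ZD

/-! Relations of words, part 4 (generated; owner: helper66). -/

set_option autoImplicit false
set_option maxRecDepth 1000000

namespace Cfsg.Agent.LyG

open Cfsg.Agent.CosetEnum Cfsg.Agent.KMat

theorem zc72 : allR (prB PM ms2 prsZC) 72 3 = true := by decide +kernel

theorem zc75 : allR (prB PM ms2 prsZC) 75 3 = true := by decide +kernel

theorem zc78 : allR (prB PM ms2 prsZC) 78 3 = true := by decide +kernel

theorem zc81 : allR (prB PM ms2 prsZC) 81 3 = true := by decide +kernel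

theorem zc84 : allR (prB PM ms2 prsZC) 84 3 = true := by decide +kernel

theorem zc87 : allR (prB PM ms2 prsZC) 87 3 = true := by decide +kernel

theorem zv4 : Cov (prB PM ms2 prsZC) 72 90 :=
  ((((((Cov.of zc72 rfl).trans (Cov.of zc75 rfl)).trans (Cov.of zc78 rfl)).trans (Cov.of zc81 rfl)).trans (Cov.of zc84 rfl)).trans (Cov.of zc87 rfl))

end Cfsg.Agent.LyG
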