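import Cfsg.Agent.CosetEnum.Ly.ZD

/-! Relations of words, part 5 (generated; owner: helper66). -/

set_option autoImplicit false
set_option maxRecDepth 1000000

namespace Cfsg.Agent.LyG

open Cfsg.Agent.CosetEnum Cfsg.Agent.KMat

theorem zc90 : allR (prB PM ms2 prsZC) 90 3 = true := by decide +kernel

theorem zc93 : allR (prB PM ms2 prsZC) 93 3 = true := by decide +kernel

theorem zc96 : allR (prB PM ms2 prsZC) 96 3 = true := by decide +kernel

theorem zc99 : allR (prB PM ms2 prsZC) 99 3 = true := by decide +kernel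

theorem zc102 : allR (prB PM ms2 prsZC) 102 3 = true := by decide +kernel

theorem zc105 : allR (prB PM ms2 prsZC) 105 3 = true := by decide +kernel

theorem zv5 : Cov (prB PM ms2 prsZC) 90 108 :=
  ((((((Cov.of zc90 rfl).trans (Cov.of zc93 rfl)).trans (Cov.of zc96 rfl)).trans (Cov.of zc99 rfl)).trans (Cov.of zc102 rfl)).trans (Cov.of zc105 rfl))

end Cfsg.Agent.LyG
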