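import Cfsg.Agent.CosetEnum.Ly.ZP0
import Cfsg.Agent.CosetEnum.Ly.ZP1
import Cfsg.Agent.CosetEnum.Ly.ZP2
import Cfsg.Agent.CosetEnum.Ly.ZP3
import Cfsg.Agent.CosetEnum.Ly.ZP4
import Cfsg.Agent.CosetEnum.Ly.ZP5
import Cfsg.Agent.CosetEnum.Ly.ZP6
import Cfsg.Agent.CosetEnum.Ly.Mul

/-!
The centraliser of an involution of the Lyons group: words (owner: helper66).
-/

set_option autoImplicit false
set_option maxRecDepth 1000000
set_option linter.all false

namespace Cfsg.Agent.LyG

open MulAction Cfsg.Agent.CosetEnum Cfsg.Agent.KMat Cfsg.Spor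

theorem zcov : Cov (prB PM ms2 prsZC) 0 111 := ((((((zv0.trans zv1).trans zv2).trans zv3).trans zv4).trans zv5).trans zv6)

/-- words in the letters 1..15 -/
def okW (w : List ℕ) : Bool := w.all fun x => Nat.ble 1 x && Nat.ble x 15

theorem okW_mem {w : List ℕ} (hw : okW w = true) {x : ℕ} (hx : x ∈ w) : 1 ≤ x ∧ x ≤ 15 := by
  have h := (List.all_eq_true.1 hw) x hx
  rw [Bool.and_eq_true] at h
  exact ⟨Nat.le_of_ble_eq_true h.1, Nat.le_of_ble_eq_true h.2⟩

theorem okW_lets {w : List ℕ} (hw : okW w = true) : ∀ x ∈ w, x ∈ letsA := by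
  intro x hx
  have h := okW_mem hw hx
  rw [letsA, List.mem_range'_1]
  omega

theorem phi_ev_Ug {w : List ℕ} (hw : okW w = true) : phi (ev gL w) = (w.map Ug).prod := by
  rw [phi_ev]
  unfold ev
  congr 1
  apply List.map_congr_left
  intro x hx
  unfold Ug
  rw [if_pos (okW_mem hw hx).2]

theorem zrelC {w w' : List ℕ} (hp : prsZC.contains (w, w') = true) (hw : okW w = true) (hw' : okW w' = true) :
    ev gL w = ev gL w' := by
  apply phi_inj
  rw [phi_ev_Ug hw, phi_ev_Ug hw']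
  exact FG.rel zcov (by simpa using hp) (okW_lets hw) (okW_lets hw')

theorem zne {w w' : List ℕ} (hw : okW w = true) (hw' : okW w' = true)
    (h : Nat.beq (walk PM ms2 w 1) (walk PM ms2 w' 1) = false) : ev gL w ≠ ev gL w' := by
  intro e
  have h1 := congrArg phi e
  rw [phi_ev_Ug hw, phi_ev_Ug hw'] at h1
  have h4 := (FG.walk_eq (u := w) (u' := w') (okW_lets hw) (okW_lets hw') e0_vec).2 (by rw [h1])
  rw [h4] at h
  simp at h

theorem ev_rep (w : List ℕ) (n : ℕ) : ev gL (List.replicate n w).flatten = ev gL w ^ n := by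
  induction n with
  | zero => rw [pow_zero]; simp [ev]
  | succ n ih => rw [List.replicate_succ, List.flatten_cons, ev_app, ih, pow_succ']

/-- the involution -/
noncomputable def zL : Spor.Ly := ev gL ZW

/-- lifts of the generators of the alternating group -/
noncomputable def XL (i : Fin 9) : Spor.Ly := ev gL (XW.getD i.1 [])

theorem z_sq : zL * zL = 1 := by
  have h := zrelC (w := ZW ++ ZW) (w' := []) (by decide +kernel) (by decide +kernel) (by decide +kernel)
  rw [ev_app] at h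
  exact h

theorem z_ne : zL ≠ 1 := zne (w := ZW) (w' := []) (by decide +kernel) (by decide +kernel) (by decide +kernel)

theorem z_ord : orderOf zL = 2 := orderOf_eq_prime (by rw [pow_two]; exact z_sq) z_ne

theorem z_mem : zL ∈ HG := word_mem_Cl gL (by decide +kernel)

theorem X_comm (i : Fin 9) : XL i * zL = zL * XL i := by
  have h1 : ∀ i : Fin 9, prsZC.contains (XW.getD i.1 [] ++ ZW, ZW ++ XW.getD i.1 []) = true ∧ okW (XW.getD i.1 [] ++ ZW) = true ∧
      okW (ZW ++ XW.getD i.1 []) = true := by decide +kernel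
  have h := zrelC (h1 i).1 (h1 i).2.1 (h1 i).2.2
  rw [ev_app, ev_app] at h
  exact h

/-- relation modulo the involution -/
def chkZ (n : ℕ) (w : List ℕ) : Bool := okW w && (prsZC.contains ((List.replicate n w).flatten, []) ||
  prsZC.contains ((List.replicate n w).flatten, ZW))

theorem chkZ_sound {n : ℕ} {w : List ℕ} (h : chkZ n w = true) : ev gL w ^ n ∈ Subgroup.zpowers zL := by
  unfold chkZ at h
  rw [Bool.and_eq_true, Bool.or_eq_true] at h
  have hok : okW (List.replicate n w).flatten = true := by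
    unfold okW
    rw [List.all_eq_true]
    intro x hx
    rw [List.mem_flatten] at hx
    obtain ⟨u, hu, hx⟩ := hx
    rw [List.eq_of_mem_replicate hu] at hx
    exact (List.all_eq_true.1 h.1) x hx
  rw [← ev_rep]
  rcases h.2 with h2 | h2
  · rw [zrelC h2 hok (by decide)]
    exact one_mem _
  · rw [zrelC h2 hok (by decide +kernel)]
    exact Subgroup.mem_zpowers _

theorem X_h0 : XL 0 ^ 3 ∈ Subgroup.zpowers zL := chkZ_sound (by decide +kernel)

theorem X_h1 (i : Fin 9) (hi : 1 ≤ i.val) : XL i ^ 2 ∈ Subgroup.zpowers zL := by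
  have h : ∀ i : Fin 9, 1 ≤ i.val → chkZ 2 (XW.getD i.1 []) = true := by decide +kernel
  exact chkZ_sound (h i hi)

theorem X_h2 (i j : Fin 9) (hij : j.val = i.val + 1) : (XL i * XL j) ^ 3 ∈ Subgroup.zpowers zL := by
  have h : ∀ i j : Fin 9, j.val = i.val + 1 → chkZ 3 (XW.getD i.1 [] ++ XW.getD j.1 []) = true := by decide +kernel
  have := chkZ_sound (h i j hij)
  rwa [ev_app] at this

theorem X_h3 (i j : Fin 9) (hij : i.val + 1 < j.val) : (XL i * XL j) ^ 2 ∈ Subgroup.zpowers zL := by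
  have h : ∀ i j : Fin 9, i.val + 1 < j.val → chkZ 2 (XW.getD i.1 [] ++ XW.getD j.1 []) = true := by decide +kernel
  have := chkZ_sound (h i j hij)
  rwa [ev_app] at this

theorem X_hz1 : XL 1 ^ 2 = zL := by
  have h := zrelC (w := (List.replicate 2 (XW.getD 1 [])).flatten) (w' := ZW) (by decide +kernel) (by decide +kernel) (by decide +kernel)
  rw [ev_rep] at h
  exact h

theorem X_hne : XL 0 ∉ Subgroup.zpowers zL := by
  intro h
  have h3 : XL 0 ^ 3 = 1 := by
    have h := zrelC (w := (List.replicate 3 (XW.getD 0 [])).flatten) (w' := []) (by decide +kernel) (by decide +kernel) (by decide +kernel)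
    rw [ev_rep] at h
    exact h
  have hne : XL 0 ≠ 1 := zne (w := XW.getD 0 []) (w' := []) (by decide +kernel) (by decide +kernel) (by decide +kernel)
  obtain ⟨k, hk⟩ := Subgroup.mem_zpowers_iff.1 h
  have h2 : XL 0 ^ 2 = 1 := by
    rw [← hk, ← zpow_natCast, ← zpow_mul, mul_comm, zpow_mul, zpow_natCast, pow_two, z_sq, one_zpow]
  apply hne
  calc XL 0 = XL 0 ^ 3 * (XL 0 ^ 2)⁻¹ := by group
    _ = 1 := by rw [h3, h2]; simp

/-! ### The odd subgroups of the two-point stabilisers -/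

/-- in the stabiliser of the second point -/
def RW (W : List ℕ) (x : Spor.Ly) : Prop := x ∈ HG ∧ ev gL W * x * (ev gL W)⁻¹ ∈ HG

theorem RW.mul {W : List ℕ} {x y : Spor.Ly} (hx : RW W x) (hy : RW W y) : RW W (x * y) := by
  refine ⟨mul_mem hx.1 hy.1, ?_⟩
  have : ev gL W * (x * y) * (ev gL W)⁻¹ = ev gL W * x * (ev gL W)⁻¹ * (ev gL W * y * (ev gL W)⁻¹) := by group
  rw [this]
  exact mul_mem hx.2 hy.2

theorem RW.of {W s : List ℕ} (h : Q gL (W ++ s) W) (hs : wOK 13 s = true) : RW W (ev gL s) := by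
  refine ⟨word_mem_Cl gL hs, ?_⟩
  have h1 : ev gL (W ++ s) * (ev gL W)⁻¹ ∈ Cl gL 13 := h
  rwa [ev_app] at h1

theorem RW.cat {W s t : List ℕ} (hs : RW W (ev gL s)) (ht : RW W (ev gL t)) : RW W (ev gL (s ++ t)) := by
  rw [ev_app]
  exact hs.mul ht

theorem r1a : RW W1 (ev gL ka1) := RW.of (s1_3 gL_good) (by decide +kernel)
theorem r1b : RW W1 (ev gL kb1) :=
  RW.cat (s := [3, 1, 1] ++ [2, 6, 8, 2, 9, 8, 4, 10]) (t := [2, 2, 4])
    (RW.cat (RW.of ((s1_1 gL_good).inv gL_good) (by decide +kernel)) (RW.of (s1_3 gL_good) (by decide +kernel)))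
    (RW.of (s1_1 gL_good) (by decide +kernel))
theorem r2a : RW W2 (ev gL ka2) :=
  RW.cat (s := [1, 6, 2]) (t := [11, 2, 8, 10, 1, 3, 13, 6, 10])
    (RW.of ((s2_2 gL_good).inv gL_good) (by decide +kernel)) (RW.of (s2_3 gL_good) (by decide +kernel))
theorem r2b : RW W2 (ev gL kb2) :=
  RW.cat (s := ([12, 12, 2] ++ [11, 2, 8, 10, 1, 3, 13, 6, 10]) ++ [2, 2, 4]) (t := [9, 5, 13, 4, 2, 9, 7, 1, 12])
    (RW.cat (RW.cat (RW.of ((s2_0 gL_good).inv gL_good) (by decide +kernel)) (RW.of (s2_3 gL_good) (by decide +kernel)))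
      (RW.of (s2_1 gL_good) (by decide +kernel)))
    (RW.of ((s2_3 gL_good).inv gL_good) (by decide +kernel))
theorem r3a : RW W3 (ev gL ka3) :=
  RW.cat (s := ([2] ++ [2, 7, 7, 13, 11, 13, 7, 12, 7, 13]) ++ [1]) (t := [2, 7, 7, 13, 11, 13, 7, 12, 7, 13])
    (RW.cat (RW.cat (RW.of ((s3_0 gL_good).inv gL_good) (by decide +kernel)) (RW.of (s3_2 gL_good) (by decide +kernel)))
      (RW.of (s3_0 gL_good) (by decide +kernel)))
    (RW.of (s3_2 gL_good) (by decide +kernel))
theorem r3b : RW W3 (ev gL kb3) :=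
  RW.cat (s := [1] ++ [2, 7, 7, 13, 11, 13, 7, 12, 7, 13]) (t := [2])
    (RW.cat (RW.of (s3_0 gL_good) (by decide +kernel)) (RW.of (s3_2 gL_good) (by decide +kernel)))
    (RW.of ((s3_0 gL_good).inv gL_good) (by decide +kernel))

theorem k_pow {w : List ℕ} {n : ℕ} (h : prsZC.contains ((List.replicate n w).flatten, []) = true)
    (hw : okW (List.replicate n w).flatten = true) : ev gL w ^ n = 1 := by
  rw [← ev_rep, zrelC h hw (by decide)]
  rfl

theorem ka1_5 : ev gL ka1 ^ 5 = 1 := k_pow (by decide +kernel) (by decide +kernel)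
theorem kb1_5 : ev gL kb1 ^ 5 = 1 := k_pow (by decide +kernel) (by decide +kernel)
theorem ka2_7 : ev gL ka2 ^ 7 = 1 := k_pow (by decide +kernel) (by decide +kernel)
theorem kb2_3 : ev gL kb2 ^ 3 = 1 := k_pow (by decide +kernel) (by decide +kernel)
theorem ka3_7 : ev gL ka3 ^ 7 = 1 := k_pow (by decide +kernel) (by decide +kernel)
theorem kb3_3 : ev gL kb3 ^ 3 = 1 := k_pow (by decide +kernel) (by decide +kernel)

theorem iw_eq (a b : List ℕ) : ev gL (a ++ b ++ iw a ++ iw b) = ev gL a * ev gL b * (ev gL a)⁻¹ * (ev gL b)⁻¹ := by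
  rw [ev_app, ev_app, ev_app, ev_iw gL_good, ev_iw gL_good]

theorem k1_ca : (ev gL ka1 * ev gL kb1 * (ev gL ka1)⁻¹ * (ev gL kb1)⁻¹) * ev gL ka1 =
    ev gL ka1 * (ev gL ka1 * ev gL kb1 * (ev gL ka1)⁻¹ * (ev gL kb1)⁻¹) := by
  have h := zrelC (w := (ka1 ++ kb1 ++ iw ka1 ++ iw kb1) ++ ka1) (w' := ka1 ++ (ka1 ++ kb1 ++ iw ka1 ++ iw kb1))
    (by decide +kernel) (by decide +kernel) (by decide +kernel)
  rw [ev_app, ev_app (a := ka1), iw_eq] at h
  exact h

theorem k1_cb : (ev gL ka1 * ev gL kb1 * (ev gL ka1)⁻¹ * (ev gL kb1)⁻¹) * ev gL kb1 =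
    ev gL kb1 * (ev gL ka1 * ev gL kb1 * (ev gL ka1)⁻¹ * (ev gL kb1)⁻¹) := by
  have h := zrelC (w := (ka1 ++ kb1 ++ iw ka1 ++ iw kb1) ++ kb1) (w' := kb1 ++ (ka1 ++ kb1 ++ iw ka1 ++ iw kb1))
    (by decide +kernel) (by decide +kernel) (by decide +kernel)
  rw [ev_app, ev_app (a := kb1), iw_eq] at h
  exact h

theorem k2_c : ev gL kb2 * ev gL ka2 * (ev gL kb2)⁻¹ = ev gL ka2 ^ 4 := by
  have h := zrelC (w := kb2 ++ ka2) (w' := (List.replicate 4 ka2).flatten ++ kb2)
    (by decide +kernel) (by decide +kernel) (by decide +kernel)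
  rw [ev_app, ev_app, ev_rep] at h
  rw [h, mul_inv_cancel_right]

theorem k3_c : ev gL kb3 * ev gL ka3 * (ev gL kb3)⁻¹ = ev gL ka3 ^ 4 := by
  have h := zrelC (w := kb3 ++ ka3) (w' := (List.replicate 4 ka3).flatten ++ kb3)
    (by decide +kernel) (by decide +kernel) (by decide +kernel)
  rw [ev_app, ev_app, ev_rep] at h
  rw [h, mul_inv_cancel_right]

theorem k1_nc : ev gL ka1 * ev gL kb1 ≠ ev gL kb1 * ev gL ka1 := by
  rw [← ev_app, ← ev_app]
  exact zne (by decide +kernel) (by decide +kernel) (by decide +kernel)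
theorem k2_nc : ev gL ka2 * ev gL kb2 ≠ ev gL kb2 * ev gL ka2 := by
  rw [← ev_app, ← ev_app]
  exact zne (by decide +kernel) (by decide +kernel) (by decide +kernel)
theorem k3_nc : ev gL ka3 * ev gL kb3 ≠ ev gL kb3 * ev gL ka3 := by
  rw [← ev_app, ← ev_app]
  exact zne (by decide +kernel) (by decide +kernel) (by decide +kernel)

/-! ### Double cosets -/

theorem cov_HG (x : Spor.Ly) : ∃ W ∈ Ws, ∃ h ∈ HG, ∃ h' ∈ HG, x = h * (ev gL W)⁻¹ * h' := by
  obtain ⟨W, hW, a, ha⟩ := cover (hg := gL_good) (by decide) (gdA gL_good) gL_top x⁻¹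
  refine ⟨W, hW, (tL a)⁻¹, inv_mem (th_mem gL_good a), (x⁻¹ * (ev gL W * tL a)⁻¹)⁻¹, inv_mem ha, by group⟩

/-- representatives of the double cosets -/
noncomputable def gi : Fin 4 → Spor.Ly := ![(ev gL W1)⁻¹, (ev gL W2)⁻¹, (ev gL W4)⁻¹, (ev gL W3)⁻¹]

theorem hcov (x : Spor.Ly) : x ∈ HG ∨ ∃ i, ∃ h ∈ HG, ∃ h' ∈ HG, x = h * gi i * h' := by
  obtain ⟨W, hW, h, hh, h', hh', e⟩ := cov_HG x
  simp only [Ws, List.mem_cons, List.not_mem_nil, or_false] at hW
  rcases hW with rfl | rfl | rfl | rfl | rfl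
  · left
    rw [e, show ev gL W0 = 1 from rfl, inv_one, mul_one]
    exact mul_mem hh hh'
  · exact Or.inr ⟨0, h, hh, h', hh', e⟩
  · exact Or.inr ⟨1, h, hh, h', hh', e⟩
  · exact Or.inr ⟨3, h, hh, h', hh', e⟩
  · exact Or.inr ⟨2, h, hh, h', hh', e⟩

theorem mem_M {W : List ℕ} {x : Spor.Ly} (h : RW W x) :
    x ∈ HG ⊓ HG.map (MulAut.conj (ev gL W)⁻¹).toMonoidHom := by
  refine ⟨h.1, ev gL W * x * (ev gL W)⁻¹, h.2, ?_⟩
  show (ev gL W)⁻¹ * (ev gL W * x * (ev gL W)⁻¹) * ((ev gL W)⁻¹)⁻¹ = x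
  group

/-- the order of the two-point stabilisers is not divisible by 14400 -/
theorem no_D {W : List ℕ} (hW : W ∈ Ws) (hW0 : W ≠ []) (s : ℕ)
    (hs : ∀ (A : MulAction QA (Spor.Ly ⧸ Cl gL 13)), (∀ (a : QA) (x : Spor.Ly ⧸ Cl gL 13), a • x = tL a • x) →
      Nat.card (stabilizer QA (pt gL (ev gL W))) = s) (h : 14400 ∣ s) (hsN : s ∣ 5859000000) : False := by
  obtain ⟨t, rfl⟩ := h
  obtain ⟨e, he⟩ := hsN
  have hte : t * e = 406875 := by
    have h1 : 14400 * (t * e) = 14400 * 406875 := by rw [← mul_assoc, ← he]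
    exact Nat.eq_of_mul_eq_mul_left (by norm_num) h1
  have key : ∀ d : ℕ, 5859000000 ≤ d * (14400 * t) → ¬ d ∣ 406875 → 5859000000 ≤ (d - 1) * (14400 * t) := by
    intro d h1 h2
    have ht : 0 < 14400 * t := by
      rcases Nat.eq_zero_or_pos t with rfl | h; · simp at hte
      omega
    have h3 : e ≤ d := by
      rw [he, mul_comm] at h1
      exact Nat.le_of_mul_le_mul_right h1 ht
    have h4 : e ≠ d := by
      rintro rfl
      exact h2 ⟨t, by rw [← hte, mul_comm]⟩
    calc 5859000000 = e * (14400 * t) := by rw [he, mul_comm]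
      _ ≤ (d - 1) * (14400 * t) := Nat.mul_le_mul_right _ (by omega)
  have fin : ∀ cs : List ℕ, Ws.length = cs.length → (∀ (A : MulAction QA (Spor.Ly ⧸ Cl gL 13)),
      (∀ (a : QA) (x : Spor.Ly ⧸ Cl gL 13), a • x = tL a • x) →
      ∀ p ∈ Ws.zip cs, 5859000000 ≤ p.2 * Nat.card (stabilizer QA (pt gL (ev gL p.1)))) → cs.sum < 8835156 → False := by
    intro cs h1 h2 h3
    have h4 := (index_le gL_good h1 (by decide) (gdA gL_good) h2 gL_top).2
    have h5 : (Cl gL 13).index = 8835156 := index_eq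
    omega
  simp only [Ws, List.mem_cons, List.not_mem_nil, or_false] at hW
  rcases hW with rfl | rfl | rfl | rfl | rfl
  · exact hW0 rfl
  · refine fin [1, 19530 - 1, 968750, 5812500, 2034375] rfl ?_ (by decide)
    intro A hA p hp
    simp only [Ws, List.zip_cons_cons, List.zip_nil_left, List.mem_cons, List.not_mem_nil, or_false] at hp
    rcases hp with rfl | rfl | rfl | rfl | rfl
    · exact sg0 gL_good A hA
    · have h1 := sg1 gL_good A hA
      show 5859000000 ≤ (19530 - 1) * Nat.card (stabilizer QA (pt gL (ev gL W1)))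
      rw [hs A hA] at h1 ⊢
      exact key 19530 h1 (by decide)
    · exact sg2 gL_good A hA
    · exact sg3 gL_good A hA
    · exact sg4 gL_good A hA
  · refine fin [1, 19530, 968750 - 1, 5812500, 2034375] rfl ?_ (by decide)
    intro A hA p hp
    simp only [Ws, List.zip_cons_cons, List.zip_nil_left, List.mem_cons, List.not_mem_nil, or_false] at hp
    rcases hp with rfl | rfl | rfl | rfl | rfl
    · exact sg0 gL_good A hA
    · exact sg1 gL_good A hA
    · have h1 := sg2 gL_good A hA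
      show 5859000000 ≤ (968750 - 1) * Nat.card (stabilizer QA (pt gL (ev gL W2)))
      rw [hs A hA] at h1 ⊢
      exact key 968750 h1 (by decide)
    · exact sg3 gL_good A hA
    · exact sg4 gL_good A hA
  · refine fin [1, 19530, 968750, 5812500 - 1, 2034375] rfl ?_ (by decide)
    intro A hA p hp
    simp only [Ws, List.zip_cons_cons, List.zip_nil_left, List.mem_cons, List.not_mem_nil, or_false] at hp
    rcases hp with rfl | rfl | rfl | rfl | rfl
    · exact sg0 gL_good A hA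
    · exact sg1 gL_good A hA
    · exact sg2 gL_good A hA
    · have h1 := sg3 gL_good A hA
      show 5859000000 ≤ (5812500 - 1) * Nat.card (stabilizer QA (pt gL (ev gL W3)))
      rw [hs A hA] at h1 ⊢
      exact key 5812500 h1 (by decide)
    · exact sg4 gL_good A hA
  · refine fin [1, 19530, 968750, 5812500, 2034375 - 1] rfl ?_ (by decide)
    intro A hA p hp
    simp only [Ws, List.zip_cons_cons, List.zip_nil_left, List.mem_cons, List.not_mem_nil, or_false] at hp
    rcases hp with rfl | rfl | rfl | rfl | rfl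
    · exact sg0 gL_good A hA
    · exact sg1 gL_good A hA
    · exact sg2 gL_good A hA
    · exact sg3 gL_good A hA
    · have h1 := sg4 gL_good A hA
      show 5859000000 ≤ (2034375 - 1) * Nat.card (stabilizer QA (pt gL (ev gL W4)))
      rw [hs A hA] at h1 ⊢
      exact key 2034375 h1 (by decide)

/-- a subgroup of order 14400 of `HG` has only one fixed point -/
theorem hfixL {D : Subgroup Spor.Ly} (hD : D ≤ HG) (hc : Nat.card D = 14400) (g : Spor.Ly)
    (h : D ≤ HG.map (MulAut.conj g).toMonoidHom) : g ∈ HG := by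
  obtain ⟨W, hW, h1, hh1, h2, hh2, e⟩ := cov_HG g
  by_cases hW0 : W = []
  · subst hW0
    rw [e, show ev gL [] = 1 from rfl, inv_one, mul_one]
    exact mul_mem hh1 hh2
  · exfalso
    -- the stabiliser in `QA`
    let S : Subgroup QA := (HG.map (MulAut.conj (ev gL W)⁻¹).toMonoidHom).comap tL
    have hS : ∀ a : QA, a ∈ S ↔ ev gL W * tL a * (ev gL W)⁻¹ ∈ HG := by
      intro a
      constructor
      · rintro ⟨y, hy, hya⟩
        have : (ev gL W)⁻¹ * y * ((ev gL W)⁻¹)⁻¹ = tL a := hya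
        rw [← this]
        have e2 : ev gL W * ((ev gL W)⁻¹ * y * ((ev gL W)⁻¹)⁻¹) * (ev gL W)⁻¹ = y := by group
        rw [e2]
        exact hy
      · intro hy
        refine ⟨_, hy, ?_⟩
        show (ev gL W)⁻¹ * (ev gL W * tL a * (ev gL W)⁻¹) * ((ev gL W)⁻¹)⁻¹ = tL a
        group
    have hfin := finite_QA
    have hstab : ∀ (A : MulAction QA (Spor.Ly ⧸ Cl gL 13)), (∀ (a : QA) (x : Spor.Ly ⧸ Cl gL 13), a • x = tL a • x) →
        Nat.card (stabilizer QA (pt gL (ev gL W))) = Nat.card S := by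
      intro A hA
      have : stabilizer QA (pt gL (ev gL W)) = S := by
        ext a
        rw [hS, mem_stabilizer_iff, hA, smul_pt, pt_eq, map_inv]
        constructor
        · intro h3
          have h4 := inv_mem h3
          have e3 : (ev gL W * (tL a)⁻¹ * (ev gL W)⁻¹)⁻¹ = ev gL W * tL a * (ev gL W)⁻¹ := by group
          rwa [e3] at h4
        · intro h3
          have h4 := inv_mem h3
          have e3 : (ev gL W * tL a * (ev gL W)⁻¹)⁻¹ = ev gL W * (tL a)⁻¹ * (ev gL W)⁻¹ := by group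
          rwa [e3] at h4
      rw [this]
    -- the conjugate of `D`
    let D' : Subgroup Spor.Ly := D.map (MulAut.conj h1⁻¹).toMonoidHom
    have hD' : D' ≤ HG := by
      rintro _ ⟨y, hy, rfl⟩
      show h1⁻¹ * y * (h1⁻¹)⁻¹ ∈ HG
      exact mul_mem (mul_mem (inv_mem hh1) (hD hy)) (inv_mem (inv_mem hh1))
    have hcD' : Nat.card D' = 14400 := by
      rw [← hc]
      exact (Nat.card_congr (D.equivMapOfInjective _ (MulAut.conj h1⁻¹).injective).toEquiv).symm
    have hle : D'.comap tL ≤ S := by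
      intro a ha
      rw [hS]
      obtain ⟨y, hy, hya⟩ := ha
      have h3 : h1⁻¹ * y * (h1⁻¹)⁻¹ = tL a := hya
      obtain ⟨u, hu, huy⟩ := h hy
      have h4 : g * u * g⁻¹ = y := huy
      have h5 : ev gL W * tL a * (ev gL W)⁻¹ = h2 * u * h2⁻¹ := by
        rw [← h3, ← h4, e]; group
      rw [h5]
      exact mul_mem (mul_mem hh2 hu) (inv_mem hh2)
    have hcard : Nat.card ↥(D'.comap tL) = 14400 := by
      rw [← hcD']
      have h3 : (D'.comap tL).map tL = D' := by
        rw [Subgroup.map_comap_eq, tL_range]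
        exact inf_eq_right.2 hD'
      have h4 := (Nat.card_congr ((D'.comap tL).equivMapOfInjective tL tL_inj).toEquiv)
      rw [h3] at h4
      exact h4
    refine no_D hW hW0 (Nat.card S) hstab ?_ ?_
    · rw [← hcard]
      exact Subgroup.card_dvd_of_le hle
    · rw [← card_QA]
      exact Subgroup.card_subgroup_dvd_card S

end Cfsg.Agent.LyG
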