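import Cfsg.Agent.CosetEnum.Ly.ZD

/-! Relations of words, part 0 (generated; owner: helper66). -/

set_option autoImplicit false
set_option maxRecDepth 1000000

namespace Cfsg.Agent.LyG

open Cfsg.Agent.CosetEnum Cfsg.Agent.KMat

theorem zc0 : allR (prB PM ms2 prsZC) 0 3 = true := by decide +kernel

theorem zc3 : allR (prB PM ms2 prsZC) 3 3 = true := by decide +kernel

theorem zc6 : allR (prB PM ms2 prsZC) 6 3 = true := by decide +kernel

theorem zc9 : allR (prB PM ms2 prsZC) 9 3 = true := by decide +kernel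

theorem zc12 : allR (prB PM ms2 prsZC) 12 3 = true := by decide +kernel

theorem zc15 : allR (prB PM ms2 prsZC) 15 3 = true := by decide +kernel

theorem zv0 : Cov (prB PM ms2 prsZC) 0 18 :=
  ((((((Cov.of zc0 rfl).trans (Cov.of zc3 rfl)).trans (Cov.of zc6 rfl)).trans (Cov.of zc9 rfl)).trans (Cov.of zc12 rfl)).trans (Cov.of zc15 rfl))

end Cfsg.Agent.LyG
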